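import Cfsg.Agent.H15.Out.McLChecks
import Cfsg.Agent.H95.McLFusion.Data

/-!
Kernel checks for a Sylow 2-subgroup of the McLaughlin group: the multiplication table, the centre, conjugacy of
three generating involutions to the central one, and invariants showing that its automorphisms stabilise a series
above the Frattini subgroup.
-/

set_option autoImplicit false
set_option maxRecDepth 100000

open Cfsg.Agent.H16 Cfsg.Agent.H36.AutEngine Cfsg.Agent.H36 Cfsg.Agent.H15.Out

namespace Cfsg.Agent.H95.McLFusion

/-- An element as a word in the program. -/
noncomputable def sw (i : ℕ) : List ℕ := getW sylWords i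

/-- Right multiplication by a generator. -/
noncomputable def nx (j i : ℕ) : ℕ := pim 8 (getN nextTab j) i

/-- Multiply on the right by a word in the generators. -/
noncomputable def act (a : ℕ) (w : List ℕ) : ℕ :=
  List.rec (motive := fun _ => ℕ → ℕ) (fun a => a) (fun j _ ih a => forceNat (nx j a) ih) w a

/-- The product in the table. -/
noncomputable def mi (a b : ℕ) : ℕ := act a (getW letters b)

/-- A product of table elements. -/
noncomputable def mprod (w : List ℕ) : ℕ :=
  List.rec (motive := fun _ => ℕ → ℕ) (fun a => a) (fun b _ ih a => forceNat (mi a b) ih) w oneIdx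

/-- The square. -/
noncomputable def sqI (a : ℕ) : ℕ := mi a a

/-- The number of elements commuting with `a`. -/
noncomputable def centCount (a : ℕ) : ℕ := countFrom (fun b => Nat.beq (mi a b) (mi b a)) 128 0

/-- Elements of order eight. -/
noncomputable def isA (a : ℕ) : Bool := !(Nat.beq (sqI (sqI a)) oneIdx)

/-- Elements of order four. -/
noncomputable def isFour (a : ℕ) : Bool := Nat.beq (sqI (sqI a)) oneIdx && !(Nat.beq (sqI a) oneIdx)

/-- Elements of order four with centraliser of order 16 and square the central involution. -/
noncomputable def isB (a : ℕ) : Bool := isFour a && (Nat.beq (centCount a) 16 && Nat.beq (sqI a) tIdx)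

/-- Elements of order four with centraliser of order 8. -/
noncomputable def isC (a : ℕ) : Bool := isFour a && Nat.beq (centCount a) 8

/-- Membership in a listed set. -/
noncomputable def inList (l : List ℕ) (a : ℕ) : Bool := l.any fun x => Nat.beq x a

/-- The translate of a listed set contains `a`. -/
noncomputable def inCoset (l : List ℕ) (r a : ℕ) : Bool := l.any fun x => Nat.beq (mi x r) a

/-- The images of the base coincide with the listed numbers. -/
noncomputable def codeOk (i : ℕ) : Bool :=
  Nat.beq ((McL.levels.map fun L => McL.ctx.evalEl (sw i) L.b).foldr (fun x acc => x + 512 * acc) 0)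
    (getN sylCodes i)

theorem words_ok : (sylWords.all fun w => w.all fun a => Nat.blt a 857) = true := by decide +kernel

theorem codes_ok : allFrom codeOk 128 0 = true := by decide +kernel

theorem codes_lt : allFrom (fun i => Nat.blt (getN sylCodes i) (getN sylCodes (i + 1))) 127 0 = true := by
  decide +kernel

theorem gens_ok : (Nat.beq genIdx.length 3 && genIdx.all (fun a => Nat.blt a 128) && Nat.blt oneIdx 128 &&
    Nat.blt tIdx 128 && McL.ctx.eqOn McL.levels (sw oneIdx) [] && !(Nat.beq tIdx oneIdx)) = true := by
  decide +kernel

theorem next_ok : allFrom (fun j => allFrom (fun i => Nat.blt (nx j i) 128 &&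
    McL.ctx.eqOn McL.levels (sw i ++ sw (getN genIdx j)) (sw (nx j i))) 128 0) 3 0 = true := by decide +kernel

theorem letters_ok : allFrom (fun i => (getW letters i).all (fun j => Nat.blt j 3) &&
    Nat.beq (act oneIdx (getW letters i)) i) 128 0 = true := by decide +kernel

theorem center_ok : allFrom (fun i => Nat.beq i oneIdx || Nat.beq i tIdx ||
    genIdx.any fun g => !(Nat.beq (mi i g) (mi g i))) 128 0 = true := by decide +kernel

theorem wit_ok : allFrom (fun j => (getW witWords j).all (fun a => Nat.blt a 857) &&
    McL.ctx.eqOn McL.levels (getW witWords j ++ sw tIdx) (sw (getN genIdx j) ++ getW witWords j)) 3 0 = true := by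
  decide +kernel

theorem phi_ok : allFrom (fun k => (getW phiRoots k).all (fun a => Nat.blt a 128) &&
    Nat.beq (mprod ((getW phiRoots k).map sqI)) (getN phiList k)) phiList.length 0 = true := by decide +kernel

theorem m_ok : allFrom (fun k => (getW mWords k).all (fun a => Nat.beq a repA || inList phiList a) &&
    Nat.beq (mprod (getW mWords k)) (getN mList k)) mList.length 0 = true := by decide +kernel

theorem l_ok : allFrom (fun k => (getW lWords k).all (fun a => Nat.beq a repA || Nat.beq a repB || inList phiList a) &&
    Nat.beq (mprod (getW lWords k)) (getN lList k)) lList.length 0 = true := by decide +kernel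

theorem cover_ok : allFrom (fun a => inList lList a || inCoset lList repC a) 128 0 = true := by decide +kernel

theorem reps_ok : (Nat.blt repA 128 && Nat.blt repB 128 && Nat.blt repC 128 &&
    isA repA && isB repB && isC repC) = true := by decide +kernel

theorem isA_ok : allFrom (fun a => !(isA a) || inCoset phiList repA a) 128 0 = true := by decide +kernel

theorem isB_ok : allFrom (fun a => !(isB a) || inCoset mList repB a) 128 0 = true := by decide +kernel

theorem isC_ok : allFrom (fun a => !(isC a) || inCoset lList repC a) 128 0 = true := by decide +kernel

end Cfsg.Agent.H95.McLFusion
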