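import Cfsg.Agent.H15.Out.McLModel
import Cfsg.Agent.H95.McLFusion.Cert
import Cfsg.Agent.H24.Resistant
import Cfsg.Agent.H24.PGroupBasic
import Cfsg.Agent.H94.ConstrainedSetup
import Cfsg.Agent.H96.Simple
import Cfsg.Agent.H93.Group

/-!
The 2-fusion system of the McLaughlin group is simple: the Sylow 2-subgroup has a 2-group of automorphisms, and is
generated by three involutions conjugate to the central one.
-/

set_option autoImplicit false

open Cfsg.Agent.H16 Cfsg.Agent.H36.AutEngine Cfsg.Agent.H36 Cfsg.Agent.H15.Out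

namespace Cfsg.Agent.H95.McLFusion

open Cfsg Cfsg.FusionSystem

variable {G : Type*} [Group G] (f : G ≃* ↥(grpOf McL.gen))

/-- The element named by a word. -/
noncomputable def el (w : List ℕ) : G := f.symm (prodG McL.setting_eq.1 w)

theorem el_nil : el f [] = 1 := by simp [el, prodG]

theorem el_append (u v : List ℕ) : el f (u ++ v) = el f u * el f v := by simp [el, prodG]

theorem el_of_eqOn {u v : List ℕ} (h : McL.ctx.eqOn McL.levels u v = true) : el f u = el f v := by
  rw [el, el, eqOn_eq McL.setting_eq.1 h]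

/-- A table element. -/
noncomputable def phi (i : ℕ) : G := el f (sw i)

/-- The value of a word in the generators. -/
noncomputable def gprod (w : List ℕ) : G := (w.map fun j => phi f (getN genIdx j)).prod

theorem gens_facts : genIdx.length = 3 ∧ (∀ a ∈ genIdx, a < 128) ∧ oneIdx < 128 ∧ tIdx < 128 ∧
    tIdx ≠ oneIdx ∧ McL.ctx.eqOn McL.levels (sw oneIdx) [] = true := by
  have h := gens_ok
  simp only [Bool.and_eq_true, List.all_eq_true, Nat.blt_eq, Bool.not_eq_true'] at h
  obtain ⟨⟨⟨⟨⟨h1, h2⟩, h3⟩, h4⟩, h5⟩, h6⟩ := h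
  refine ⟨Nat.eq_of_beq_eq_true h1, h2, h3, h4, fun e => ?_, h5⟩
  rw [e, Nat.beq_refl] at h6
  exact Bool.noConfusion h6

theorem gen_lt {j : ℕ} (hj : j < 3) : getN genIdx j < 128 := by
  obtain ⟨hl, ha, -⟩ := gens_facts
  rw [getN_eq_getD, List.getD_eq_getElem?_getD, List.getElem?_eq_getElem (by omega)]
  exact ha _ (List.getElem_mem _)

theorem phi_one : phi f oneIdx = 1 := by
  rw [phi, el_of_eqOn f gens_facts.2.2.2.2.2, el_nil]

theorem next_spec {j i : ℕ} (hj : j < 3) (hi : i < 128) :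
    nx j i < 128 ∧ phi f i * phi f (getN genIdx j) = phi f (nx j i) := by
  have h := allFrom_spec (allFrom_spec next_ok j (Nat.zero_le _) (by omega)) i (Nat.zero_le _) (by omega)
  simp only [Bool.and_eq_true, Nat.blt_eq] at h
  exact ⟨h.1, by rw [phi, phi, phi, ← el_append]; exact el_of_eqOn f h.2⟩

theorem act_spec : ∀ (w : List ℕ) (a : ℕ), a < 128 → (∀ j ∈ w, j < 3) →
    act a w < 128 ∧ phi f a * gprod f w = phi f (act a w)
  | [], a, ha, _ => ⟨ha, by simp [gprod, act]⟩
  | j :: w, a, ha, hw => by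
    obtain ⟨h1, h2⟩ := next_spec f (hw j List.mem_cons_self) ha
    obtain ⟨h3, h4⟩ := act_spec w (nx j a) h1 fun x hx => hw x (List.mem_cons_of_mem _ hx)
    have e : act a (j :: w) = act (nx j a) w := by
      show forceNat (nx j a) (act · w) = _
      rw [forceNat_eq]
    refine ⟨e ▸ h3, ?_⟩
    rw [e, ← h4, ← h2]
    simp [gprod, mul_assoc]

theorem letters_spec {b : ℕ} (hb : b < 128) :
    (∀ j ∈ getW letters b, j < 3) ∧ gprod f (getW letters b) = phi f b := by
  have h := allFrom_spec letters_ok b (Nat.zero_le _) (by omega)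
  simp only [Bool.and_eq_true, List.all_eq_true, Nat.blt_eq] at h
  refine ⟨h.1, ?_⟩
  have := (act_spec f (getW letters b) oneIdx gens_facts.2.2.1 h.1).2
  rw [Nat.eq_of_beq_eq_true h.2, phi_one, one_mul] at this
  exact this

theorem mi_spec {a b : ℕ} (ha : a < 128) (hb : b < 128) :
    mi a b < 128 ∧ phi f a * phi f b = phi f (mi a b) := by
  obtain ⟨hl, he⟩ := letters_spec f hb
  obtain ⟨h1, h2⟩ := act_spec f (getW letters b) a ha hl
  rw [he] at h2
  exact ⟨h1, h2⟩

theorem getW_forall {P : ℕ → Prop} : ∀ {l : List (List ℕ)}, (∀ w ∈ l, ∀ x ∈ w, P x) →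
    ∀ (k : ℕ), ∀ x ∈ getW l k, P x
  | [], _, k, x, hx => absurd hx List.not_mem_nil
  | a :: l, h, 0, x, hx => h a List.mem_cons_self x hx
  | a :: l, h, k + 1, x, hx =>
    getW_forall (l := l) (fun w hw => h w (List.mem_cons_of_mem _ hw)) k x hx

theorem code_lt_code : ∀ j i : ℕ, i < j → j < 128 → getN sylCodes i < getN sylCodes j := by
  intro j
  induction j with
  | zero => intro i h; omega
  | succ j ih =>
    intro i hij hj
    have h := allFrom_spec codes_lt j (Nat.zero_le _) (by omega)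
    simp only [Nat.blt_eq] at h
    rcases Nat.lt_succ_iff_lt_or_eq.1 hij with hlt | rfl
    · exact (ih i hlt (by omega)).trans h
    · exact h

theorem phi_inj {a b : ℕ} (ha : a < 128) (hb : b < 128) (h : phi f a = phi f b) : a = b := by
  have hv : ∀ i, ∀ x ∈ sw i, x < McL.ctx.ns := by
    intro i x hx
    have hw := words_ok
    simp only [List.all_eq_true, Nat.blt_eq] at hw
    exact getW_forall (P := fun x => x < 857) hw i x hx
  have he := eqOn_of_eq McL.setting_eq.1 (hv a) (hv b) (f.symm.injective h)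
  simp only [Ctx.eqOn, Bool.and_eq_true, List.all_eq_true] at he
  have hmap : (McL.levels.map fun L => McL.ctx.evalEl (sw a) L.b) =
      McL.levels.map fun L => McL.ctx.evalEl (sw b) L.b :=
    List.map_congr_left fun L hL => Nat.eq_of_beq_eq_true (he.2 L hL)
  have hc : getN sylCodes a = getN sylCodes b := by
    have h1 := allFrom_spec codes_ok a (Nat.zero_le _) (by omega)
    have h2 := allFrom_spec codes_ok b (Nat.zero_le _) (by omega)
    rw [← Nat.eq_of_beq_eq_true h1, ← Nat.eq_of_beq_eq_true h2, hmap]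
  rcases lt_trichotomy a b with hlt | heq | hgt
  · exact absurd hc (code_lt_code b a hlt hb).ne
  · exact heq
  · exact absurd hc (code_lt_code a b hgt ha).ne'

theorem t_ne_one : phi f tIdx ≠ 1 := fun h =>
  gens_facts.2.2.2.2.1 (phi_inj f gens_facts.2.2.2.1 gens_facts.2.2.1 (h.trans (phi_one f).symm))

/-- The Sylow subgroup. -/
noncomputable def sylM : Subgroup G :=
  Subgroup.closure (Set.range fun j : Fin 3 => phi f (getN genIdx j))

theorem phi_mem {i : ℕ} (hi : i < 128) : phi f i ∈ sylM f := by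
  obtain ⟨hl, he⟩ := letters_spec f hi
  rw [← he, gprod]
  refine list_prod_mem fun x hx => ?_
  obtain ⟨j, hj, rfl⟩ := List.mem_map.1 hx
  exact Subgroup.subset_closure ⟨⟨j, hl j hj⟩, rfl⟩

variable [Finite G]

theorem mem_sylM_iff {x : G} : x ∈ sylM f ↔ ∃ i < 128, x = phi f i := by
  refine ⟨fun hx => ?_, fun ⟨i, hi, e⟩ => e ▸ phi_mem f hi⟩
  rw [sylM, ← Subgroup.mem_toSubmonoid, Subgroup.closure_toSubmonoid_of_finite] at hx
  induction hx using Submonoid.closure_induction_right with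
  | one => exact ⟨oneIdx, gens_facts.2.2.1, (phi_one f).symm⟩
  | mul_right y _ z hz ih =>
    obtain ⟨i, hi, rfl⟩ := ih
    obtain ⟨j, rfl⟩ := hz
    obtain ⟨h1, h2⟩ := next_spec f j.isLt hi
    exact ⟨_, h1, h2⟩

/-- The table as the elements of the Sylow subgroup. -/
noncomputable def tabEquiv : Fin 128 ≃ sylM f :=
  Equiv.ofBijective (fun i => ⟨phi f i, phi_mem f i.isLt⟩)
    ⟨fun a b h => Fin.ext (phi_inj f a.isLt b.isLt (congrArg Subtype.val h)), fun ⟨x, hx⟩ => by
      obtain ⟨i, hi, rfl⟩ := (mem_sylM_iff f).1 hx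
      exact ⟨⟨i, hi⟩, rfl⟩⟩

/-- A table element in the Sylow subgroup. -/
noncomputable def ps (i : ℕ) : sylM f := if h : i < 128 then tabEquiv f ⟨i, h⟩ else 1

theorem ps_val {i : ℕ} (hi : i < 128) : (ps f i : G) = phi f i := by
  rw [ps, dif_pos hi]; rfl

theorem ps_inj {a b : ℕ} (ha : a < 128) (hb : b < 128) : ps f a = ps f b ↔ a = b :=
  ⟨fun h => phi_inj f ha hb (by rw [← ps_val f ha, ← ps_val f hb, h]), fun h => h ▸ rfl⟩

theorem ps_surj (x : sylM f) : ∃ i < 128, x = ps f i := by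
  obtain ⟨i, hi, e⟩ := (mem_sylM_iff f).1 x.2
  exact ⟨i, hi, Subtype.ext (e.trans (ps_val f hi).symm)⟩

theorem ps_mul {a b : ℕ} (ha : a < 128) (hb : b < 128) : ps f a * ps f b = ps f (mi a b) := by
  obtain ⟨h1, h2⟩ := mi_spec f ha hb
  exact Subtype.ext (by rw [Subgroup.coe_mul, ps_val f ha, ps_val f hb, ps_val f h1, h2])

theorem ps_one : ps f oneIdx = 1 := Subtype.ext ((ps_val f gens_facts.2.2.1).trans (phi_one f))

include f in
theorem mi_lt {a b : ℕ} (ha : a < 128) (hb : b < 128) : mi a b < 128 := (mi_spec f ha hb).1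

theorem ps_mprod : ∀ w : List ℕ, (∀ a ∈ w, a < 128) →
    ps f (mprod w) = (w.map (ps f)).prod := by
  suffices h : ∀ (w : List ℕ) (a : ℕ), a < 128 → (∀ b ∈ w, b < 128) →
      ps f (List.rec (motive := fun _ => ℕ → ℕ) (fun a => a) (fun b _ ih a => ih (mi a b)) w a) =
        ps f a * (w.map (ps f)).prod by
    intro w hw
    have := h w oneIdx gens_facts.2.2.1 hw
    rw [ps_one, one_mul] at this
    simpa [mprod, forceNat_eq] using this
  intro w
  induction w with
  | nil => intro a _ _; simp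
  | cons b w ih =>
    intro a ha hw
    simp only [List.map_cons, List.prod_cons]
    rw [ih (mi a b) (mi_lt f ha (hw b List.mem_cons_self)) fun c hc => hw c (List.mem_cons_of_mem _ hc),
      ← ps_mul f ha (hw b List.mem_cons_self), mul_assoc]

theorem ps_sq {a : ℕ} (ha : a < 128) : ps f (sqI a) = ps f a ^ 2 := by
  rw [pow_two, ps_mul f ha ha, sqI]

include f in
theorem sqI_lt {a : ℕ} (ha : a < 128) : sqI a < 128 := mi_lt f ha ha

theorem card_sylM : Nat.card (sylM f) = 128 := by
  rw [← Nat.card_congr (tabEquiv f), Nat.card_fin]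

include f in
theorem card_G : Nat.card G = 898128000 := by rw [Nat.card_congr f.toEquiv, McL.card_grp]

theorem sylM_pgroup : IsPGroup 2 (sylM f) := IsPGroup.of_card (n := 7) (by rw [card_sylM]; norm_num)

/-- The predicates are preserved by automorphisms. -/
theorem centCount_eq {a : ℕ} (ha : a < 128) :
    centCount a = Nat.card {y : sylM f // ps f a * y = y * ps f a} := by
  rw [centCount, countFrom_spec]
  have e : {y : sylM f // ps f a * y = y * ps f a} ≃
      {i : ℕ // i ∈ (Finset.Ico 0 (0 + 128)).filter fun b => Nat.beq (mi a b) (mi b a) = true} :=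
    (Equiv.ofBijective (fun (i : {i : ℕ // i ∈ (Finset.Ico 0 (0 + 128)).filter fun b =>
        Nat.beq (mi a b) (mi b a) = true}) => (⟨ps f i.1, by
      obtain ⟨h1, h2⟩ := Finset.mem_filter.1 i.2
      have hb : i.1 < 128 := by simpa using (Finset.mem_Ico.1 h1).2
      rw [ps_mul f ha hb, ps_mul f hb ha, Nat.eq_of_beq_eq_true h2]⟩ : {y : sylM f // ps f a * y = y * ps f a}))
      ⟨fun i j h => by
        have hi := (Finset.mem_Ico.1 (Finset.mem_filter.1 i.2).1).2
        have hj := (Finset.mem_Ico.1 (Finset.mem_filter.1 j.2).1).2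
        exact Subtype.ext ((ps_inj f (by simpa using hi) (by simpa using hj)).1 (Subtype.ext_iff.1 h :)),
      fun ⟨y, hy⟩ => by
        obtain ⟨b, hb, rfl⟩ := ps_surj f y
        refine ⟨⟨b, Finset.mem_filter.2 ⟨Finset.mem_Ico.2 ⟨Nat.zero_le _, by omega⟩, ?_⟩⟩, rfl⟩
        rw [ps_mul f ha hb, ps_mul f hb ha, ps_inj f (mi_lt f ha hb) (mi_lt f hb ha)] at hy
        rw [hy]; exact Nat.beq_refl _⟩).symm
  rw [Nat.card_congr e, Nat.card_eq_finsetCard]

theorem isA_iff {a : ℕ} (ha : a < 128) : isA a = true ↔ (ps f a ^ 2) ^ 2 ≠ 1 := by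
  rw [← ps_sq f ha, ← ps_sq f (sqI_lt f ha), ← ps_one f, ne_eq,
    ps_inj f (sqI_lt f (sqI_lt f ha)) gens_facts.2.2.1, isA, Bool.not_eq_true', ← Bool.not_eq_true]
  simp

theorem isFour_iff {a : ℕ} (ha : a < 128) :
    isFour a = true ↔ (ps f a ^ 2) ^ 2 = 1 ∧ ps f a ^ 2 ≠ 1 := by
  rw [← ps_sq f ha, ← ps_sq f (sqI_lt f ha), ← ps_one f, ne_eq,
    ps_inj f (sqI_lt f (sqI_lt f ha)) gens_facts.2.2.1, ps_inj f (sqI_lt f ha) gens_facts.2.2.1,
    isFour]
  simp [← Bool.not_eq_true]

theorem center_spec {x : sylM f} (hx : x ∈ Subgroup.center (sylM f)) : x = 1 ∨ x = ps f tIdx := by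
  obtain ⟨i, hi, rfl⟩ := ps_surj f x
  have h := allFrom_spec center_ok i (Nat.zero_le _) (by omega)
  simp only [Bool.or_eq_true, List.any_eq_true, Bool.not_eq_true'] at h
  rcases h with (h | h) | ⟨g, hg, hne⟩
  · rw [Nat.eq_of_beq_eq_true h, ps_one]; exact Or.inl rfl
  · rw [Nat.eq_of_beq_eq_true h]; exact Or.inr rfl
  · exfalso
    have hg' := gens_facts.2.1 g hg
    have := (Subgroup.mem_center_iff.1 hx (ps f g))
    rw [ps_mul f hg' hi, ps_mul f hi hg', ps_inj f (mi_lt f hg' hi) (mi_lt f hi hg')] at this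
    rw [this, Nat.beq_refl] at hne
    exact Bool.noConfusion hne

theorem fixes_t (γ : MulAut (sylM f)) : γ (ps f tIdx) = ps f tIdx := by
  have hne : ps f tIdx ≠ 1 := fun h => t_ne_one f (by rw [← ps_val f gens_facts.2.2.2.1, h]; rfl)
  have : Fact (Nat.Prime 2) := ⟨Nat.prime_two⟩
  have : Nontrivial (sylM f) := ⟨⟨_, _, hne⟩⟩
  obtain ⟨⟨z, hz⟩, hz1⟩ := Subgroup.ne_bot_iff_exists_ne_one.1 (sylM_pgroup f).bot_lt_center.ne'
  have hzt : z = ps f tIdx := (center_spec f hz).resolve_left fun h => hz1 (Subtype.ext h)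
  have hc : γ z ∈ Subgroup.center (sylM f) := by
    rw [Subgroup.mem_center_iff]
    intro y
    obtain ⟨y', rfl⟩ := γ.surjective y
    rw [← map_mul, ← map_mul, Subgroup.mem_center_iff.1 hz y']
  rw [← hzt]
  refine ((center_spec f hc).resolve_left fun h => hz1 (Subtype.ext ?_)).trans hzt.symm
  exact γ.injective (h.trans (map_one γ).symm)

theorem centralizer_card_map (γ : MulAut (sylM f)) (x : sylM f) :
    Nat.card {y : sylM f // γ x * y = y * γ x} = Nat.card {y : sylM f // x * y = y * x} :=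
  (Nat.card_congr (γ.toEquiv.subtypeEquiv fun y => by
    show x * y = y * x ↔ γ x * γ y = γ y * γ x
    rw [← map_mul, ← map_mul, γ.injective.eq_iff])).symm

theorem isA_map (γ : MulAut (sylM f)) {a b : ℕ} (ha : a < 128) (hb : b < 128) (e : γ (ps f a) = ps f b)
    (h : isA a = true) : isA b = true := by
  rw [isA_iff f hb, ← e, ← map_pow, ← map_pow, ne_eq, EmbeddingLike.map_eq_one_iff]
  exact (isA_iff f ha).1 h

theorem isB_map (γ : MulAut (sylM f)) {a b : ℕ} (ha : a < 128) (hb : b < 128) (e : γ (ps f a) = ps f b)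
    (h : isB a = true) : isB b = true := by
  simp only [isB, Bool.and_eq_true] at h ⊢
  obtain ⟨h4, hc, hs⟩ := h
  obtain ⟨h4a, h4b⟩ := (isFour_iff f ha).1 h4
  refine ⟨(isFour_iff f hb).2 ?_, ?_, ?_⟩
  · rw [← e, ← map_pow, ← map_pow, ne_eq, EmbeddingLike.map_eq_one_iff, EmbeddingLike.map_eq_one_iff]
    exact ⟨h4a, h4b⟩
  · rw [centCount_eq f hb, ← e, centralizer_card_map, ← centCount_eq f ha]
    exact hc
  · have h1 : ps f (sqI b) = ps f tIdx := by
      rw [ps_sq f hb, ← e, ← map_pow, ← ps_sq f ha, Nat.eq_of_beq_eq_true hs, fixes_t]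
    rw [(ps_inj f (sqI_lt f hb) gens_facts.2.2.2.1).1 h1]
    exact Nat.beq_refl _

theorem isC_map (γ : MulAut (sylM f)) {a b : ℕ} (ha : a < 128) (hb : b < 128) (e : γ (ps f a) = ps f b)
    (h : isC a = true) : isC b = true := by
  simp only [isC, Bool.and_eq_true] at h ⊢
  obtain ⟨h4, hc⟩ := h
  obtain ⟨h4a, h4b⟩ := (isFour_iff f ha).1 h4
  refine ⟨(isFour_iff f hb).2 ?_, ?_⟩
  · rw [← e, ← map_pow, ← map_pow, ne_eq, EmbeddingLike.map_eq_one_iff, EmbeddingLike.map_eq_one_iff]
    exact ⟨h4a, h4b⟩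
  · rw [centCount_eq f hb, ← e, centralizer_card_map, ← centCount_eq f ha]
    exact hc

theorem getN_lt_of_mem {l : List ℕ} {k : ℕ} (hk : k < l.length) : getN l k ∈ l := by
  rw [getN_eq_getD, List.getD_eq_getElem?_getD, List.getElem?_eq_getElem hk]
  exact List.getElem_mem hk

theorem inList_iff {l : List ℕ} {a : ℕ} : inList l a = true ↔ a ∈ l := by
  simp [inList]

theorem coset_mem {H : Subgroup (sylM f)} {l : List ℕ} (hl : ∀ x ∈ l, x < 128 ∧ ps f x ∈ H) {r a : ℕ}
    (hr : r < 128) (h : inCoset l r a = true) : ps f a * (ps f r)⁻¹ ∈ H := by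
  simp only [inCoset, List.any_eq_true] at h
  obtain ⟨x, hx, he⟩ := h
  rw [← Nat.eq_of_beq_eq_true he, ← ps_mul f (hl x hx).1 hr, mul_inv_cancel_right]
  exact (hl x hx).2

theorem phi_list : ∀ x ∈ phiList, x < 128 ∧ ps f x ∈ frattini (sylM f) := by
  intro x hx
  have : Fact (Nat.Prime 2) := ⟨Nat.prime_two⟩
  obtain ⟨k, hk, rfl⟩ := List.mem_iff_getElem.1 hx
  have h := allFrom_spec phi_ok k (Nat.zero_le _) (by simpa using hk)
  simp only [Bool.and_eq_true, List.all_eq_true, Nat.blt_eq] at h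
  have hw : ∀ a ∈ (getW phiRoots k).map sqI, a < 128 := fun a ha => by
    obtain ⟨b, hb, rfl⟩ := List.mem_map.1 ha
    exact sqI_lt f (h.1 b hb)
  have hget : phiList[k] = getN phiList k := by
    rw [getN_eq_getD, List.getD_eq_getElem?_getD, List.getElem?_eq_getElem hk]; rfl
  refine ⟨(show ∀ y ∈ phiList, y < 128 from ?_) _ hx, ?_⟩
  · have hd : phiList.all (fun y => Nat.blt y 128) = true := by decide +kernel
    simpa [List.all_eq_true] using hd
  rw [hget, ← Nat.eq_of_beq_eq_true h.2, ps_mprod f _ hw]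
  refine list_prod_mem fun y hy => ?_
  simp only [List.map_map, List.mem_map, Function.comp_apply] at hy
  obtain ⟨b, hb, rfl⟩ := hy
  rw [ps_sq f (h.1 b hb)]
  exact H24.pow_mem_frattini (sylM_pgroup f) _

/-- The bottom subgroup of the series. -/
noncomputable def mid1 : Subgroup (sylM f) := frattini (sylM f) ⊔ Subgroup.zpowers (ps f repA)

/-- The top subgroup of the series. -/
noncomputable def mid2 : Subgroup (sylM f) := mid1 f ⊔ Subgroup.zpowers (ps f repB)

theorem rep_facts : repA < 128 ∧ repB < 128 ∧ repC < 128 ∧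
    isA repA = true ∧ isB repB = true ∧ isC repC = true := by
  have h := reps_ok
  simp only [Bool.and_eq_true, Nat.blt_eq] at h
  exact ⟨h.1.1.1.1.1, h.1.1.1.1.2, h.1.1.1.2, h.1.1.2, h.1.2, h.2⟩

theorem m_list : ∀ x ∈ mList, x < 128 ∧ ps f x ∈ mid1 f := by
  intro x hx
  have hlt : ∀ y ∈ mList, y < 128 := by
    have hd : mList.all (fun y => Nat.blt y 128) = true := by decide +kernel
    simpa [List.all_eq_true] using hd
  refine ⟨hlt x hx, ?_⟩
  obtain ⟨k, hk, rfl⟩ := List.mem_iff_getElem.1 hx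
  have h := allFrom_spec m_ok k (Nat.zero_le _) (by simpa using hk)
  simp only [Bool.and_eq_true, List.all_eq_true, Bool.or_eq_true, inList_iff] at h
  have hw : ∀ a ∈ getW mWords k, a < 128 := fun a ha => by
    rcases h.1 a ha with e | e
    · rw [Nat.eq_of_beq_eq_true e]; exact rep_facts.1
    · exact (phi_list f a e).1
  have hget : mList[k] = getN mList k := by
    rw [getN_eq_getD, List.getD_eq_getElem?_getD, List.getElem?_eq_getElem hk]; rfl
  rw [hget, ← Nat.eq_of_beq_eq_true h.2, ps_mprod f _ hw]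
  refine list_prod_mem fun y hy => ?_
  obtain ⟨a, ha, rfl⟩ := List.mem_map.1 hy
  rcases h.1 a ha with e | e
  · rw [Nat.eq_of_beq_eq_true e]; exact Subgroup.mem_sup_right (Subgroup.mem_zpowers _)
  · exact Subgroup.mem_sup_left (phi_list f a e).2

theorem l_list : ∀ x ∈ lList, x < 128 ∧ ps f x ∈ mid2 f := by
  intro x hx
  have hlt : ∀ y ∈ lList, y < 128 := by
    have hd : lList.all (fun y => Nat.blt y 128) = true := by decide +kernel
    simpa [List.all_eq_true] using hd
  refine ⟨hlt x hx, ?_⟩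
  obtain ⟨k, hk, rfl⟩ := List.mem_iff_getElem.1 hx
  have h := allFrom_spec l_ok k (Nat.zero_le _) (by simpa using hk)
  simp only [Bool.and_eq_true, List.all_eq_true, Bool.or_eq_true, inList_iff] at h
  have hw : ∀ a ∈ getW lWords k, a < 128 := fun a ha => by
    rcases h.1 a ha with (e | e) | e
    · rw [Nat.eq_of_beq_eq_true e]; exact rep_facts.1
    · rw [Nat.eq_of_beq_eq_true e]; exact rep_facts.2.1
    · exact (phi_list f a e).1
  have hget : lList[k] = getN lList k := by
    rw [getN_eq_getD, List.getD_eq_getElem?_getD, List.getElem?_eq_getElem hk]; rfl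
  rw [hget, ← Nat.eq_of_beq_eq_true h.2, ps_mprod f _ hw]
  refine list_prod_mem fun y hy => ?_
  obtain ⟨a, ha, rfl⟩ := List.mem_map.1 hy
  rcases h.1 a ha with (e | e) | e
  · rw [Nat.eq_of_beq_eq_true e]
    exact Subgroup.mem_sup_left (Subgroup.mem_sup_right (Subgroup.mem_zpowers _))
  · rw [Nat.eq_of_beq_eq_true e]; exact Subgroup.mem_sup_right (Subgroup.mem_zpowers _)
  · exact Subgroup.mem_sup_left (Subgroup.mem_sup_left (phi_list f a e).2)

theorem moveA (γ : MulAut (sylM f)) :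
    γ (ps f repA) * (ps f repA)⁻¹ ∈ frattini (sylM f) := by
  obtain ⟨b, hb, e⟩ := ps_surj f (γ (ps f repA))
  have h := allFrom_spec isA_ok b (Nat.zero_le _) (by omega)
  rw [isA_map f γ rep_facts.1 hb e rep_facts.2.2.2.1] at h
  rw [e]
  exact coset_mem f (phi_list f) rep_facts.1 (by simpa using h)

theorem moveB (γ : MulAut (sylM f)) : γ (ps f repB) * (ps f repB)⁻¹ ∈ mid1 f := by
  obtain ⟨b, hb, e⟩ := ps_surj f (γ (ps f repB))
  have h := allFrom_spec isB_ok b (Nat.zero_le _) (by omega)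
  rw [isB_map f γ rep_facts.2.1 hb e rep_facts.2.2.2.2.1] at h
  rw [e]
  exact coset_mem f (m_list f) rep_facts.2.1 (by simpa using h)

theorem moveC (γ : MulAut (sylM f)) : γ (ps f repC) * (ps f repC)⁻¹ ∈ mid2 f := by
  obtain ⟨b, hb, e⟩ := ps_surj f (γ (ps f repC))
  have h := allFrom_spec isC_ok b (Nat.zero_le _) (by omega)
  rw [isC_map f γ rep_facts.2.2.1 hb e rep_facts.2.2.2.2.2] at h
  rw [e]
  exact coset_mem f (l_list f) rep_facts.2.2.1 (by simpa using h)

/-- The set of elements moved within a normal subgroup is a subgroup. -/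
noncomputable def movedIn (γ : MulAut (sylM f)) (N : Subgroup (sylM f)) [N.Normal] : Subgroup (sylM f) :=
  ((QuotientGroup.mk' N).comp γ.toMonoidHom).eqLocus (QuotientGroup.mk' N)

theorem mem_movedIn {γ : MulAut (sylM f)} {N : Subgroup (sylM f)} [N.Normal] {x : sylM f} :
    x ∈ movedIn f γ N ↔ γ x * x⁻¹ ∈ N := by
  show (QuotientGroup.mk' N) (γ x) = QuotientGroup.mk' N x ↔ _
  rw [QuotientGroup.mk'_eq_mk']
  constructor
  · rintro ⟨z, hz, h⟩
    have hx : x⁻¹ = z⁻¹ * (γ x)⁻¹ := by rw [← mul_inv_rev, h]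
    rw [hx, ← mul_assoc]
    exact ‹N.Normal›.conj_mem _ (N.inv_mem hz) (γ x)
  · intro h
    refine ⟨(γ x)⁻¹ * x, ?_, by rw [mul_inv_cancel_left]⟩
    have := ‹N.Normal›.conj_mem _ (N.inv_mem h) (γ x)⁻¹
    simpa [mul_assoc] using this

theorem aut_pgroup : IsPGroup 2 (⊤ : Subgroup (MulAut (sylM f))) := by
  have : Fact (Nat.Prime 2) := ⟨Nat.prime_two⟩
  have hP := sylM_pgroup f
  have hM : frattini (sylM f) ≤ mid1 f := le_sup_left
  have hL : mid1 f ≤ mid2 f := le_sup_left
  have hMn : (mid1 f).Normal := H24.normal_of_frattini_le hP hM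
  have hLn : (mid2 f).Normal := H24.normal_of_frattini_le hP (hM.trans hL)
  have hfr : ∀ (γ : MulAut (sylM f)) (x : sylM f), x ∈ frattini (sylM f) → γ x * x⁻¹ ∈ frattini (sylM f) :=
    fun γ x hx => (frattini (sylM f)).mul_mem (H24.frattini_apply_mem γ hx) ((frattini (sylM f)).inv_mem hx)
  have h3 : ∀ (γ : MulAut (sylM f)), mid1 f ≤ movedIn f γ (frattini (sylM f)) := fun γ =>
    sup_le (fun x hx => (mem_movedIn f).2 (hfr γ x hx))
      (Subgroup.zpowers_le.2 ((mem_movedIn f).2 (moveA f γ)))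
  have h2 : ∀ (γ : MulAut (sylM f)), mid2 f ≤ movedIn f γ (mid1 f) := fun γ =>
    sup_le (fun x hx => (mem_movedIn f).2 (hM ((mem_movedIn f).1 (h3 γ hx))))
      (Subgroup.zpowers_le.2 ((mem_movedIn f).2 (moveB f γ)))
  have h1 : ∀ (γ : MulAut (sylM f)) (x : sylM f), γ x * x⁻¹ ∈ mid2 f := by
    intro γ x
    refine (mem_movedIn f).1 ?_
    have hC : ps f repC ∈ movedIn f γ (mid2 f) := (mem_movedIn f).2 (moveC f γ)
    have hLm : mid2 f ≤ movedIn f γ (mid2 f) := fun y hy =>
      (mem_movedIn f).2 (hL ((mem_movedIn f).1 (h2 γ hy)))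
    obtain ⟨i, hi, rfl⟩ := ps_surj f x
    have h := allFrom_spec cover_ok i (Nat.zero_le _) (by omega)
    simp only [Bool.or_eq_true, inList_iff] at h
    rcases h with h | h
    · exact hLm (l_list f i h).2
    · have := coset_mem f (l_list f) rep_facts.2.2.1 h
      have hprod := (movedIn f γ (mid2 f)).mul_mem (hLm this) hC
      rwa [inv_mul_cancel_right] at hprod
  exact H24.isPGroup_of_series hP (mid1 f) (mid2 f) hM hL ⊤ (fun γ _ x => h1 γ x)
    (fun γ _ x hx => (mem_movedIn f).1 (h2 γ hx)) (fun γ _ x hx => (mem_movedIn f).1 (h3 γ hx))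

theorem simple_std (S : Sylow 2 G) (hS : (S : Subgroup G) = sylM f) :
    (groupFusionSystem (S : Subgroup G)).IsSimple 2 := by
  have : Fact (Nat.Prime 2) := ⟨Nat.prime_two⟩
  have ht : phi f tIdx ∈ sylM f := phi_mem f gens_facts.2.2.2.1
  have hS1 : (S : Subgroup G) ≠ ⊥ := fun h => t_ne_one f (Subgroup.mem_bot.1 (h ▸ hS.symm ▸ ht))
  have hsat := H93.isSaturated_groupFusionSystem S
  refine H96.isSimple_of_inner_top _ 2 hsat hS1 ?_ fun T hT => ?_
  · rw [H93.inn_eq_autInducedBy]
    refine le_antisymm ?_ (H96.autInducedBy_le_autGroup _ le_rfl)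
    obtain ⟨R, hR⟩ := H93.exists_sylow_autInducedBy (S := S) (Q := (S : Subgroup G)) (p := 2)
      fun T hT hTp => by
        obtain ⟨P, hP⟩ := hTp.exists_le_sylow
        have hn : normalizerIn (S : Subgroup G) (S : Subgroup G) = S := inf_eq_left.2 Subgroup.le_normalizer
        rw [hn, S.card_eq_multiplicity]
        exact (Nat.le_of_dvd Nat.card_pos (Subgroup.card_dvd_of_le hP)).trans_eq P.card_eq_multiplicity
    rw [H93.autGroup_groupFusion S le_rfl]
    have hp : IsPGroup 2 (autInducedBy (⊤ : Subgroup G) (S : Subgroup G)) := by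
      have hall : IsPGroup 2 (⊤ : Subgroup (MulAut (S : Subgroup G))) := by
        rw [hS]; exact aut_pgroup f
      exact hall.to_le le_top
    have htop : (R : Subgroup (autInducedBy (⊤ : Subgroup G) (S : Subgroup G))) = ⊤ :=
      (R.is_maximal' (hp.of_equiv Subgroup.topEquiv.symm) le_top).symm
    intro α hα
    have : (⟨α, hα⟩ : autInducedBy (⊤ : Subgroup G) (S : Subgroup G)) ∈ (R : Subgroup _) := htop ▸ Subgroup.mem_top _
    rw [hR] at this
    exact this
  · by_cases hT1 : T = ⊥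
    · exact Or.inl hT1
    refine Or.inr (le_antisymm hT.1 ?_)
    have hconj : ∀ x ∈ T, ∀ g : G, g * x * g⁻¹ ∈ (S : Subgroup G) → g * x * g⁻¹ ∈ T := fun x hx g h =>
      H94.conj_mem_of_stronglyClosed_group hT hx h
    have : (T.subgroupOf (S : Subgroup G)).Normal := ⟨fun n hn g => hconj _ hn g (g * n * g⁻¹).2⟩
    have hne : T.subgroupOf (S : Subgroup G) ≠ ⊥ := fun h => hT1 (by
      rw [Subgroup.subgroupOf_eq_bot] at h
      exact h.eq_bot_of_le hT.1)
    obtain ⟨⟨z, hzT, hzC⟩, hz1⟩ :=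
      Subgroup.ne_bot_iff_exists_ne_one.1 (H24.inf_center_ne_bot S.isPGroup' hne)
    have hz : (z : G) = phi f tIdx := by
      have hzM : (z : G) ∈ sylM f := hS ▸ z.2
      have hc : (⟨(z : G), hzM⟩ : sylM f) ∈ Subgroup.center (sylM f) := by
        rw [Subgroup.mem_center_iff]
        intro y
        exact Subtype.ext (congrArg Subtype.val
          (Subgroup.mem_center_iff.1 hzC ⟨y.1, hS.symm ▸ y.2⟩) : _)
      rcases center_spec f hc with h | h
      · exact absurd (Subtype.ext (Subtype.ext (congrArg Subtype.val h :))) hz1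
      · exact (congrArg Subtype.val h).trans (ps_val f gens_facts.2.2.2.1)
    have htT : phi f tIdx ∈ T := hz ▸ hzT
    rw [hS, sylM, Subgroup.closure_le]
    rintro _ ⟨⟨j, hj⟩, rfl⟩
    have h := allFrom_spec wit_ok j (Nat.zero_le _) (by omega)
    simp only [Bool.and_eq_true] at h
    have he := el_of_eqOn f h.2
    rw [el_append, el_append] at he
    have e : phi f (getN genIdx j) = el f (getW witWords j) * phi f tIdx * (el f (getW witWords j))⁻¹ := by
      show el f (sw (getN genIdx j)) = el f (getW witWords j) * el f (sw tIdx) * _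
      rw [he, mul_inv_cancel_right]
    show phi f (getN genIdx j) ∈ T
    rw [e]
    exact hconj _ htT _ (e ▸ hS.symm ▸ phi_mem f (gen_lt hj))

/-- The 2-fusion system of a group isomorphic to the permutation model is simple. -/
theorem simple_of_equiv (e : G ≃* ↥(grpOf McL.gen)) (S : Sylow 2 G) :
    (groupFusionSystem (S : Subgroup G)).IsSimple 2 := by
  have : Fact (Nat.Prime 2) := ⟨Nat.prime_two⟩
  have hidx : (sylM e).index = 7016625 := by
    have h := (sylM e).card_mul_index
    rw [card_sylM, card_G e] at h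
    omega
  let P : Sylow 2 G := (sylM_pgroup e).toSylow (by rw [hidx]; norm_num)
  obtain ⟨g, hg⟩ := MulAction.exists_smul_eq G S P
  set e' := (MulAut.conj g).trans e
  refine simple_std e' S ?_
  have hel : ∀ w, el e' w = g⁻¹ * el e w * g := fun w => by
    show (MulAut.conj g).symm (el e w) = _
    rw [MulAut.conj_symm_apply]
  have hsyl : sylM e' = (sylM e).map (MulAut.conj g⁻¹).toMonoidHom := by
    rw [sylM, sylM, MonoidHom.map_closure, ← Set.range_comp]
    refine congrArg Subgroup.closure (congrArg Set.range (funext fun j => ?_))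
    simp [phi, hel]
  rw [hsyl, show sylM e = (P : Subgroup G) from rfl, ← hg, Sylow.coe_subgroup_smul]
  ext x
  rw [H93.mem_map_conj, inv_inv, Subgroup.mem_pointwise_smul_iff_inv_smul_mem]
  simp [MulAut.smul_def, mul_assoc]

end Cfsg.Agent.H95.McLFusion
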